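import Mathlib

set_option autoImplicit false

namespace Cfsg.Agent.Lib.Helper9

open scoped commutatorElement

variable {D : Type*} [Group D]

/-- nilpotency class at most two: all commutators are central. -/
def Cl2 (D : Type*) [Group D] : Prop := ∀ x y : D, ⁅x, y⁆ ∈ Subgroup.center D

theorem Cl2.comm (h : Cl2 D) (x y z : D) : ⁅x, y⁆ * z = z * ⁅x, y⁆ :=
  ((Subgroup.mem_center_iff.mp (h x y)) z).symm

theorem Cl2.comm_mul_left (h : Cl2 D) (x y z : D) : ⁅x * y, z⁆ = ⁅x, z⁆ * ⁅y, z⁆ := by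
  have h1 : ⁅x * y, z⁆ = x * ⁅y, z⁆ * x⁻¹ * ⁅x, z⁆ := by
    simp only [commutatorElement_def]; group
  rw [h1, ← h.comm y z x, mul_inv_cancel_right, h.comm]

theorem Cl2.comm_mul_right (h : Cl2 D) (x y z : D) : ⁅x, y * z⁆ = ⁅x, y⁆ * ⁅x, z⁆ := by
  have h1 : ⁅x, y * z⁆ = ⁅x, y⁆ * (y * ⁅x, z⁆ * y⁻¹) := by
    simp only [commutatorElement_def]; group
  rw [h1, ← h.comm x z y, mul_inv_cancel_right]

theorem comm_central_right {c : D} (hc : c ∈ Subgroup.center D) (x : D) : ⁅x, c⁆ = 1 := by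
  rw [commutatorElement_eq_one_iff_mul_comm]
  exact ((Subgroup.mem_center_iff.mp hc) x)

theorem comm_central_left {c : D} (hc : c ∈ Subgroup.center D) (x : D) : ⁅c, x⁆ = 1 := by
  rw [commutatorElement_eq_one_iff_mul_comm]
  exact ((Subgroup.mem_center_iff.mp hc) x).symm

/-- carrier of the Baer group of `D`. -/
@[ext] structure BT (D : Type*) where
  /-- underlying element -/
  val : D

theorem baer_assoc (hc : Cl2 D) (h : ℕ) (x y z : D) :
    x * y * ⁅y, x⁆ ^ h * z * ⁅z, x * y * ⁅y, x⁆ ^ h⁆ ^ h =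
      x * (y * z * ⁅z, y⁆ ^ h) * ⁅y * z * ⁅z, y⁆ ^ h, x⁆ ^ h := by
  have c1 : ⁅y, x⁆ ^ h ∈ Subgroup.center D := Subgroup.pow_mem _ (hc y x) h
  have c2 : ⁅z, y⁆ ^ h ∈ Subgroup.center D := Subgroup.pow_mem _ (hc z y) h
  have e1 : ⁅z, x * y * ⁅y, x⁆ ^ h⁆ = ⁅z, x⁆ * ⁅z, y⁆ := by
    rw [hc.comm_mul_right, hc.comm_mul_right, comm_central_right c1, mul_one]
  have e2 : ⁅y * z * ⁅z, y⁆ ^ h, x⁆ = ⁅y, x⁆ * ⁅z, x⁆ := by
    rw [hc.comm_mul_left, hc.comm_mul_left, comm_central_left c2, mul_one]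
  rw [e1, e2]
  have k1 : Commute ⁅z, x⁆ ⁅z, y⁆ := hc.comm z x _
  have k2 : Commute ⁅y, x⁆ ⁅z, x⁆ := hc.comm y x _
  rw [k1.mul_pow, k2.mul_pow]
  set a := ⁅y, x⁆ ^ h with ha
  set b := ⁅z, x⁆ ^ h with hb
  set c := ⁅z, y⁆ ^ h with hc'
  have ca : ∀ w : D, a * w = w * a := fun w => ((Subgroup.mem_center_iff.mp c1) w).symm
  have cc : ∀ w : D, c * w = w * c := fun w => ((Subgroup.mem_center_iff.mp c2) w).symm
  calc x * y * a * z * (b * c) = x * y * (a * z) * (b * c) := by group
    _ = x * y * (z * a) * (b * c) := by rw [ca z]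
    _ = x * y * z * (a * b) * c := by group
    _ = x * y * z * (c * (a * b)) := by rw [cc (a * b)]; group
    _ = x * (y * z * c) * (a * b) := by group

/-- The Baer commutative group structure on a group of class at most two in which every
element has a unique square root `x ^ h`. -/
@[reducible] def BT.commGroup (hc : Cl2 D) (h : ℕ) (hh : ∀ x : D, (x ^ h) ^ 2 = x) :
    CommGroup (BT D) where
  mul a b := ⟨a.val * b.val * ⁅b.val, a.val⁆ ^ h⟩
  one := ⟨1⟩
  inv a := ⟨a.val⁻¹⟩
  mul_assoc a b c := by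
    apply BT.ext
    exact baer_assoc hc h a.val b.val c.val
  one_mul a := by
    apply BT.ext
    show 1 * a.val * ⁅a.val, 1⁆ ^ h = a.val
    simp
  mul_one a := by
    apply BT.ext
    show a.val * 1 * ⁅1, a.val⁆ ^ h = a.val
    simp
  inv_mul_cancel a := by
    apply BT.ext
    show a.val⁻¹ * a.val * ⁅a.val, a.val⁻¹⁆ ^ h = 1
    have : ⁅a.val, a.val⁻¹⁆ = 1 := by simp [commutatorElement_def]
    simp [this]
  mul_comm a b := by
    apply BT.ext
    show a.val * b.val * ⁅b.val, a.val⁆ ^ h = b.val * a.val * ⁅a.val, b.val⁆ ^ h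
    have e1 : a.val * b.val = b.val * a.val * ⁅a.val, b.val⁆ := by
      rw [← hc.comm a.val b.val]
      simp only [commutatorElement_def]; group
    have e2 : ⁅b.val, a.val⁆ = ⁅a.val, b.val⁆⁻¹ := (commutatorElement_inv _ _).symm
    have e3 := hh ⁅a.val, b.val⁆
    rw [e1, e2, mul_assoc, inv_pow]
    congr 1
    rw [mul_inv_eq_iff_eq_mul, ← sq]
    exact e3.symm

section
variable (hc : Cl2 D) (h : ℕ) (hh : ∀ x : D, (x ^ h) ^ 2 = x)

theorem BT.mul_val (a b : BT D) :
    (letI := BT.commGroup hc h hh; (a * b).val) = a.val * b.val * ⁅b.val, a.val⁆ ^ h := rfl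

theorem BT.one_val : (letI := BT.commGroup hc h hh; (1 : BT D).val) = 1 := rfl

theorem BT.pow_val (a : BT D) (n : ℕ) :
    (letI := BT.commGroup hc h hh; (a ^ n).val) = a.val ^ n := by
  letI := BT.commGroup hc h hh
  induction n with
  | zero => simp only [pow_zero]; rfl
  | succ n ih =>
    rw [pow_succ, BT.mul_val, ih]
    have : ⁅a.val, a.val ^ n⁆ = 1 := by
      rw [commutatorElement_eq_one_iff_mul_comm]
      exact (Commute.self_pow a.val n).eq
    rw [this, one_pow, mul_one, pow_succ]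

/-- an automorphism of `D` is an endomorphism of the Baer group. -/
def BT.map (f : MulAut D) :
    letI := BT.commGroup hc h hh
    BT D →* BT D :=
  letI := BT.commGroup hc h hh
  { toFun := fun a => ⟨f a.val⟩
    map_one' := by
      apply BT.ext
      show f 1 = 1
      simp
    map_mul' := by
      intro a b
      apply BT.ext
      show f (a.val * b.val * ⁅b.val, a.val⁆ ^ h) = f a.val * f b.val * ⁅f b.val, f a.val⁆ ^ h
      simp [map_commutatorElement] }

theorem BT.map_val (f : MulAut D) (a : BT D) : (BT.map hc h hh f a).val = f a.val := rfl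

end

theorem baer_fixed {K E : Type*} [Finite D] [Group K] [Finite K] [Group E]
    {p : ℕ} [Fact p.Prime] (hp2 : p ≠ 2) (hD : IsPGroup p D) (hcl : Cl2 D)
    (φ : K →* MulAut D) (ψ : E →* MulAut D) (hE : IsPGroup p E) (hK : (Nat.card K).Coprime p)
    (hnorm : ∀ e : E, ∃ σ : K ≃ K, ∀ k : K, ψ e * φ k = φ (σ k) * ψ e)
    (hfix : ∀ x : D, (∀ e, ψ e x = x) → ∀ k, φ k x = x) : ∀ k x, φ k x = x := by
  have hp : p.Prime := Fact.out
  obtain ⟨n, hn⟩ := IsPGroup.iff_card.mp hD
  have hodd : Odd (p ^ n) := (hp.odd_of_ne_two hp2).pow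
  obtain ⟨m, hm⟩ := hodd
  have hh : ∀ x : D, (x ^ (m + 1)) ^ 2 = x := by
    intro x
    rw [← pow_mul]
    have : (m + 1) * 2 = p ^ n + 1 := by omega
    rw [this, pow_succ, ← hn, pow_card_eq_one', one_mul]
  letI := BT.commGroup hcl (m + 1) hh
  haveI : Fintype K := Fintype.ofFinite K
  let M : MulAut D → (BT D →* BT D) := BT.map hcl (m + 1) hh
  let τ : BT D →* BT D :=
    { toFun := fun x => ∏ k : K, M (φ k) x
      map_one' := by simp
      map_mul' := by
        intro a b
        simp only [map_mul]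
        exact Finset.prod_mul_distrib }
  have hτ : ∀ x, τ x = ∏ k : K, M (φ k) x := fun _ => rfl
  have hMM : ∀ (f g : MulAut D) (x : BT D), M f (M g x) = M (f * g) x := fun f g x => rfl
  have hb : ∀ (k : K) (x : BT D), M (φ k) (τ x) = τ x := by
    intro k x
    rw [hτ, map_prod]
    simp only [hMM, ← map_mul]
    exact Fintype.prod_equiv (Equiv.mulLeft k) _ _ (fun _ => rfl)
  have hcE : ∀ (e : E) (x : BT D), M (ψ e) (τ x) = τ (M (ψ e) x) := by
    intro e x
    obtain ⟨σ, hσ⟩ := hnorm e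
    rw [hτ, hτ, map_prod]
    simp only [hMM, hσ]
    exact Fintype.prod_equiv σ _ _ (fun _ => rfl)
  have hd : ∀ x : BT D, (∀ k, φ k x.val = x.val) → τ x = x ^ Nat.card K := by
    intro x hx
    rw [hτ]
    have : ∀ k : K, M (φ k) x = x := fun k => BT.ext (hx k)
    simp only [this, Finset.prod_const, Finset.card_univ, Nat.card_eq_fintype_card]
  have hfin : Finite (BT D) := Finite.of_injective BT.val (fun a b => BT.ext)
  have hcardBT : Nat.card (BT D) = p ^ n := by
    rw [← hn]
    exact Nat.card_congr ⟨BT.val, BT.mk, fun _ => rfl, fun _ => rfl⟩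
  by_cases hker : τ.ker = ⊥
  · have hinj : Function.Injective τ := (MonoidHom.ker_eq_bot_iff τ).mp hker
    have hsurj : Function.Surjective τ := Finite.surjective_of_injective hinj
    intro k x
    obtain ⟨y, hy⟩ := hsurj ⟨x⟩
    have := hb k y
    rw [hy] at this
    exact congrArg BT.val this
  · exfalso
    letI : MulAction E τ.ker :=
      { smul := fun e x => ⟨M (ψ e) x, by
          rw [MonoidHom.mem_ker, ← hcE, MonoidHom.mem_ker.mp x.2, map_one]⟩
        one_smul := fun x => by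
          apply Subtype.ext
          apply BT.ext
          show (ψ 1) x.1.val = x.1.val
          simp
        mul_smul := fun a b x => by
          apply Subtype.ext
          apply BT.ext
          show (ψ (a * b)) x.1.val = ψ a (ψ b x.1.val)
          simp }
    have hdvd : Nat.card τ.ker ∣ p ^ n := hcardBT ▸ Subgroup.card_subgroup_dvd_card τ.ker
    obtain ⟨j, -, hj⟩ := (Nat.dvd_prime_pow hp).mp hdvd
    have hpd : p ∣ Nat.card τ.ker := by
      rw [hj]
      rcases j with _ | j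
      · exact absurd (Subgroup.card_eq_one.mp (by simpa using hj)) hker
      · exact dvd_pow_self p (Nat.succ_ne_zero j)
    have h1 : (1 : τ.ker) ∈ MulAction.fixedPoints E τ.ker := by
      intro e
      apply Subtype.ext
      show M (ψ e) 1 = 1
      simp
    obtain ⟨b, hbf, hb1⟩ := hE.exists_fixed_point_of_prime_dvd_card_of_fixed_point τ.ker hpd h1
    apply hb1
    have hbE : ∀ e, ψ e b.1.val = b.1.val := fun e =>
      congrArg (fun z : τ.ker => z.1.val) (hbf e)
    have h2 := hd b.1 (hfix _ hbE)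
    rw [MonoidHom.mem_ker.mp b.2] at h2
    have h3 : b.1.val ^ Nat.card K = 1 := by
      have := congrArg BT.val h2
      rw [BT.pow_val] at this
      exact this.symm
    have h4 : b.1.val ^ p ^ n = 1 := by rw [← hn]; exact pow_card_eq_one'
    have h5 : orderOf b.1.val ∣ Nat.gcd (Nat.card K) (p ^ n) :=
      Nat.dvd_gcd (orderOf_dvd_of_pow_eq_one h3) (orderOf_dvd_of_pow_eq_one h4)
    rw [Nat.Coprime.pow_right n hK, Nat.dvd_one, orderOf_eq_one_iff] at h5
    symm
    apply Subtype.ext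
    apply BT.ext
    exact h5

end Cfsg.Agent.Lib.Helper9
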