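import Cfsg.Agent.Lib.Helper33.Frattini
import Cfsg.Agent.Lib.Helper33.TransferTrace

set_option autoImplicit false

namespace Cfsg.Agent.Lib.Helper9

open scoped Pointwise
open Cfsg Cfsg.Agent.Lib.Helper33

open scoped IsMulCommutative in
/-- `S ∩ Z(N)` is a direct factor of `Z(S)` when `Z(S)` lies in an abelian subgroup `A ≤ S` normalized
by `N ≥ S` (retraction by the trace map). -/
theorem exists_direct_factor {G : Type*} [Group G] [Finite G] {p : ℕ} [Fact p.Prime] (S : Sylow p G)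
    (N A : Subgroup G) (hSN : (S : Subgroup G) ≤ N) (hAS : A ≤ (S : Subgroup G))
    (hAab : ∀ a ∈ A, ∀ b ∈ A, a * b = b * a) (hNA : N ≤ Subgroup.normalizer (A : Set G))
    (hZA : (S : Subgroup G) ⊓ Subgroup.centralizer ((S : Subgroup G) : Set G) ≤ A) :
    ∃ K : Subgroup G, K ≤ (S : Subgroup G) ⊓ Subgroup.centralizer ((S : Subgroup G) : Set G) ∧
      ((S : Subgroup G) ⊓ Subgroup.centralizer (N : Set G)) ⊓ K = ⊥ ∧
      ((S : Subgroup G) ⊓ Subgroup.centralizer (N : Set G)) ⊔ K =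
        (S : Subgroup G) ⊓ Subgroup.centralizer ((S : Subgroup G) : Set G) := by
  classical
  have := Fintype.ofFinite (↥N ⧸ (S : Subgroup G).subgroupOf N)
  haveI : IsMulCommutative ↥A := ⟨⟨fun a b => Subtype.ext (hAab a a.2 b b.2)⟩⟩
  let cj : ↥N → (↥A →* ↥A) := fun n =>
    { toFun := fun a => ⟨(n : G) * a * (n : G)⁻¹, (Subgroup.mem_normalizer_iff.1 (hNA n.2) a).1 a.2⟩
      map_one' := by apply Subtype.ext; simp
      map_mul' := by intro a b; apply Subtype.ext; simp }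
  have hcj : ∀ (n : ↥N) (a : ↥A), ((cj n a : ↥A) : G) = (n : G) * a * (n : G)⁻¹ := fun _ _ => rfl
  let T : ↥A →* ↥A := ∏ q : ↥N ⧸ (S : Subgroup G).subgroupOf N, cj q.out
  have hT : ∀ a, T a = ∏ q : ↥N ⧸ (S : Subgroup G).subgroupOf N, cj q.out a := fun a =>
    MonoidHom.finsetProd_apply _ _ a
  have hout : ∀ (a : ↥A), (a : G) ∈ Subgroup.centralizer ((S : Subgroup G) : Set G) → ∀ n : ↥N,
      cj (Quotient.out (n : ↥N ⧸ (S : Subgroup G).subgroupOf N)) a = cj n a := by
    intro a ha n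
    obtain ⟨s, hs⟩ := QuotientGroup.mk_out_eq_mul ((S : Subgroup G).subgroupOf N) n
    apply Subtype.ext
    rw [hcj, hcj, hs]
    have h1 : ((s : ↥N) : G) ∈ (S : Subgroup G) := Subgroup.mem_subgroupOf.1 s.2
    have h2 := (Subgroup.mem_centralizer_iff.1 ha) _ h1
    simp only [Subgroup.coe_mul]
    calc (n : G) * ((s : ↥N) : G) * a * ((n : G) * ((s : ↥N) : G))⁻¹
        = (n : G) * (((s : ↥N) : G) * a) * ((s : ↥N) : G)⁻¹ * (n : G)⁻¹ := by group
      _ = (n : G) * ((a : G) * ((s : ↥N) : G)) * ((s : ↥N) : G)⁻¹ * (n : G)⁻¹ := by rw [h2]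
      _ = (n : G) * a * (n : G)⁻¹ := by group
  have hinv : ∀ (a : ↥A), (a : G) ∈ Subgroup.centralizer ((S : Subgroup G) : Set G) → ∀ n₀ : ↥N,
      cj n₀ (T a) = T a := by
    intro a ha n₀
    have hperm := Equiv.prod_comp (MulAction.toPerm n₀ : Equiv.Perm (↥N ⧸ (S : Subgroup G).subgroupOf N))
      (fun q => cj (Quotient.out q) a)
    rw [hT, map_prod]
    refine Eq.trans ?_ hperm
    refine Finset.prod_congr rfl fun q _ => ?_
    symm
    have h1 : (MulAction.toPerm n₀) q = ((n₀ * q.out : ↥N) : ↥N ⧸ (S : Subgroup G).subgroupOf N) := by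
      show n₀ • q = _
      conv_lhs => rw [← QuotientGroup.out_eq' q]
      rfl
    rw [h1, hout a ha]
    apply Subtype.ext
    rw [hcj, hcj, hcj]
    simp only [Subgroup.coe_mul]
    group
  set m := Fintype.card (↥N ⧸ (S : Subgroup G).subgroupOf N) with hm
  have hpow : ∀ (w : ↥A), (w : G) ∈ Subgroup.centralizer (N : Set G) → T w = w ^ m := by
    intro w hw
    rw [hT, hm, ← Finset.card_univ, ← Finset.prod_const]
    refine Finset.prod_congr rfl fun q _ => ?_
    apply Subtype.ext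
    rw [hcj]
    have := (Subgroup.mem_centralizer_iff.1 hw) _ q.out.2
    rw [this]; group
  have hmcop : m.Coprime p := by
    have h1 : ¬ p ∣ (S : Subgroup G).relIndex N := ((relSyl_top S).mono hSN le_top).2.2
    have h2 : m = (S : Subgroup G).relIndex N := by
      rw [hm, Subgroup.relIndex, Subgroup.index_eq_card, Nat.card_eq_fintype_card]
    rw [h2]
    exact ((Nat.Prime.coprime_iff_not_dvd Fact.out).2 h1).symm
  obtain ⟨k, hk⟩ := IsPGroup.iff_card.1 S.2
  have hSpow : ∀ x ∈ (S : Subgroup G), x ^ p ^ k = 1 := by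
    intro x hx
    have h3 : (⟨x, hx⟩ : ↥(S : Subgroup G)) ^ Nat.card (S : Subgroup G) = 1 := pow_card_eq_one'
    rw [hk] at h3
    exact congrArg Subtype.val h3
  have hWZ : (S : Subgroup G) ⊓ Subgroup.centralizer (N : Set G) ≤
      (S : Subgroup G) ⊓ Subgroup.centralizer ((S : Subgroup G) : Set G) :=
    le_inf inf_le_left (inf_le_right.trans (Subgroup.centralizer_le hSN))
  refine ⟨(T.ker.map A.subtype) ⊓
    ((S : Subgroup G) ⊓ Subgroup.centralizer ((S : Subgroup G) : Set G)), inf_le_right, ?_, ?_⟩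
  · rw [eq_bot_iff]
    rintro x ⟨⟨hxS, hxN⟩, ⟨a, ha, rfl⟩, -⟩
    rw [Subgroup.mem_bot]
    have h1 : T a = 1 := ha
    rw [hpow a hxN] at h1
    have h2 : (a : G) ^ m = 1 := by
      have := congrArg Subtype.val h1
      simpa using this
    exact eq_one_of_pow_coprime' (Nat.Coprime.pow_right k hmcop) h2 (hSpow _ hxS)
  · apply le_antisymm (sup_le hWZ inf_le_right)
    intro y hy
    set a : ↥A := ⟨y, hZA hy⟩ with ha
    set t := T a with ht
    have htN : (t : G) ∈ Subgroup.centralizer (N : Set G) := by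
      apply Subgroup.mem_centralizer_iff.2
      intro n hn
      have h1 := congrArg Subtype.val (hinv a hy.2 ⟨n, hn⟩)
      rw [hcj] at h1
      calc n * (t : G) = (n * (t : G) * n⁻¹) * n := by group
        _ = (t : G) * n := by rw [h1]
    have hbez : (m : ℤ) * Int.gcdA m (p ^ k) + ((p ^ k : ℕ) : ℤ) * Int.gcdB m (p ^ k) = 1 := by
      have h1 := Int.gcd_eq_gcd_ab (m : ℤ) ((p ^ k : ℕ) : ℤ)
      rw [Int.gcd_natCast_natCast, (Nat.Coprime.pow_right k hmcop).gcd_eq_one] at h1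
      exact_mod_cast h1.symm
    set u := Int.gcdA m (p ^ k) with hu
    set v := Int.gcdB m (p ^ k) with hv
    set w : ↥A := t ^ u with hw
    have hwN : (w : G) ∈ Subgroup.centralizer (N : Set G) := by
      rw [hw, Subgroup.coe_zpow]; exact Subgroup.zpow_mem _ htN u
    have htp : t ^ (p ^ k) = 1 := by
      apply Subtype.ext
      rw [Subgroup.coe_pow]
      exact hSpow _ (hAS t.2)
    have hTw : T w = t := by
      rw [hpow w hwN, hw, ← zpow_natCast, ← zpow_mul]
      have e : u * (m : ℤ) = 1 - ((p ^ k : ℕ) : ℤ) * v := by linarith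
      rw [e, zpow_sub, zpow_one, zpow_mul, zpow_natCast, htp, one_zpow, inv_one, mul_one]
    have hwS : (w : G) ∈ (S : Subgroup G) ⊓ Subgroup.centralizer (N : Set G) := ⟨hAS w.2, hwN⟩
    have hker : w⁻¹ * a ∈ T.ker := by
      rw [MonoidHom.mem_ker, map_mul, map_inv, hTw, ← ht, inv_mul_cancel]
    have e : y = (w : G) * ((w⁻¹ * a : ↥A) : G) := by
      simp [ha]
    rw [e]
    refine Subgroup.mul_mem_sup hwS ⟨⟨_, hker, rfl⟩, ?_⟩
    have h5 := Subgroup.mul_mem _ (Subgroup.inv_mem _ (hWZ hwS)) hy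
    have e2 : ((w⁻¹ * a : ↥A) : G) = (w : G)⁻¹ * y := by simp [ha]
    show ((w⁻¹ * a : ↥A) : G) ∈ (S : Subgroup G) ⊓ Subgroup.centralizer ((S : Subgroup G) : Set G)
    rw [e2]
    exact h5

end Cfsg.Agent.Lib.Helper9
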