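import Cfsg.Agent.Lib.Helper9.KInfChar
import Cfsg.Agent.Lib.Helper33.TransferInj
import Cfsg.Agent.Lib.Helper47.PCore
import Cfsg.Agent.S1978
import Cfsg.Agent.S1983

set_option autoImplicit false

namespace Cfsg.Agent.Lib.Helper9

open Cfsg Cfsg.Agent.Lib.Helper33

universe u

variable {G : Type u} [Group G] [Finite G] {p : ℕ} [Fact p.Prime]

theorem center_le_induced_kInfLower (P : Subgroup G) (hP : IsPGroup p ↥P) :
    P ⊓ Subgroup.centralizer (P : Set G) ≤ inducedFunctor kInfLower P := by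
  rintro z ⟨hz1, hz2⟩
  obtain ⟨h1, h2, -, -⟩ := Cfsg.Agent.S1978.result hP
  refine ⟨⟨z, hz1⟩, h1 (h2 ?_), rfl⟩
  rw [Subgroup.mem_center_iff]
  intro y
  apply Subtype.ext
  exact (Subgroup.mem_centralizer_iff.1 hz2) y y.2

theorem center_le_induced_kInfUpper (P : Subgroup G) (hP : IsPGroup p ↥P) :
    P ⊓ Subgroup.centralizer (P : Set G) ≤ inducedFunctor kInfUpper P := by
  rintro z ⟨hz1, hz2⟩
  obtain ⟨-, -, h1, h2⟩ := Cfsg.Agent.S1978.result hP
  refine ⟨⟨z, hz1⟩, h1 (h2 ?_), rfl⟩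
  rw [Subgroup.mem_center_iff]
  intro y
  apply Subtype.ext
  exact (Subgroup.mem_centralizer_iff.1 hz2) y y.2

/-- relative form of the quadratic element given by the K-infinity theorem. -/
theorem exists_quadratic_rel (H T : Subgroup G) (hTH : T ≤ H) (hTp : IsPGroup p ↥T)
    (hidx : ¬ p ∣ T.relIndex H)
    (hK : ¬ H ≤ Subgroup.normalizer ((inducedFunctor kInfLower T : Subgroup G) : Set G) ∨
      ¬ H ≤ Subgroup.normalizer ((inducedFunctor kInfUpper T : Subgroup G) : Set G)) :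
    ∃ g : G, g ∈ T ∧ g ∉ pCoreOf p H ∧
      ⁅⁅pCoreOf p H ⊓ Subgroup.centralizer ((pCoreOf p H : Subgroup G) : Set G),
        Subgroup.zpowers g⁆, Subgroup.zpowers g⁆ = ⊥ := by
  have hS : RelSyl p T H := ⟨hTH, hTp, hidx⟩
  set ι := H.subtype with hιdef
  have hι : Function.Injective ι := Subgroup.subtype_injective H
  let T' : Sylow p ↥H := hS.toSylow
  have hT' : (T' : Subgroup ↥H) = T.subgroupOf H := hS.coe_toSylow
  have hT'map : (T' : Subgroup ↥H).map ι = T := by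
    rw [hT']; exact Subgroup.map_subgroupOf_eq_of_le hTH
  have tr : ∀ W : ∀ (Q : Type u) [Group Q], Subgroup Q, IsCharPFunctor.{u} p W →
      ¬ H ≤ Subgroup.normalizer ((inducedFunctor W T : Subgroup G) : Set G) →
      ¬ (inducedFunctor W (T' : Subgroup ↥H)).Normal := by
    intro W hW hnot hn
    apply hnot
    intro h hh
    have h1 : (⟨h, hh⟩ : ↥H) ∈ Subgroup.normalizer
        ((inducedFunctor W (T' : Subgroup ↥H) : Subgroup ↥H) : Set ↥H) := by
      rw [Subgroup.normalizer_eq_top]; exact Subgroup.mem_top _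
    have h2 := (mem_normalizer_map_iff hι _ _).2 h1
    rwa [← inducedFunctor_map hW ι _ T'.2 hι.injOn, hT'map] at h2
  have hK' : ¬ (inducedFunctor kInfLower (T' : Subgroup ↥H)).Normal ∨
      ¬ (inducedFunctor kInfUpper (T' : Subgroup ↥H)).Normal := by
    rcases hK with h | h
    · exact Or.inl (tr _ (isCharPFunctor_kInfLower.{u} p) h)
    · exact Or.inr (tr _ (isCharPFunctor_kInfUpper.{u} p) h)
  obtain ⟨g, hg1, hg2, -, hg4, -⟩ := Cfsg.Agent.S1983.result T' hK'
  refine ⟨ι g, ?_, ?_, ?_⟩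
  · rw [← hT'map]; exact ⟨g, hg1, rfl⟩
  · rintro ⟨r, hr, hrg⟩
    rw [hι hrg] at hr
    exact hg2 hr
  · have e : pCoreOf p H ⊓ Subgroup.centralizer ((pCoreOf p H : Subgroup G) : Set G) =
        (pCore p ↥H ⊓ Subgroup.centralizer ((pCore p ↥H : Subgroup ↥H) : Set ↥H)).map ι := by
      ext x
      constructor
      · rintro ⟨⟨r, hr, rfl⟩, hx2⟩
        refine ⟨r, ⟨hr, ?_⟩, rfl⟩
        apply Subgroup.mem_centralizer_iff.2
        intro y hy
        apply hι
        rw [map_mul, map_mul]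
        exact (Subgroup.mem_centralizer_iff.1 hx2) _ ⟨y, hy, rfl⟩
      · rintro ⟨r, ⟨hr1, hr2⟩, rfl⟩
        refine ⟨⟨r, hr1, rfl⟩, ?_⟩
        apply Subgroup.mem_centralizer_iff.2
        rintro _ ⟨y, hy, rfl⟩
        rw [← map_mul, ← map_mul, (Subgroup.mem_centralizer_iff.1 hr2) y hy]
    rw [e, ← MonoidHom.map_zpowers, ← Subgroup.map_commutator, ← Subgroup.map_commutator, hg4,
      Subgroup.map_bot]

end Cfsg.Agent.Lib.Helper9
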