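import Cfsg.Agent.Lib.Helper9.PConstrained
import Cfsg.Agent.S0017
import Cfsg.Prelude.Def_Local

set_option autoImplicit false
open Cfsg Subgroup

namespace Cfsg.Agent.Lib.Helper9

open Cfsg.Agent.Lib.Helper47

variable {G : Type*} [Group G] {p : ℕ}

/-- relative `p'`-cores commute with injective homomorphisms. -/
theorem map_pPrimeCoreOf {G' : Type*} [Group G'] [Finite G] [Finite G'] (f : G →* G')
    (hf : Function.Injective f) (L : Subgroup G) :
    (pPrimeCoreOf p L).map f = pPrimeCoreOf p (L.map f) := by
  apply le_antisymm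
  · apply le_pPrimeCoreOf (map_mono (pPrimeCoreOf_le L))
    · exact (map_mono (le_normalizer_pPrimeCoreOf L)).trans (le_normalizer_map f)
    · rw [Subgroup.card_map_of_injective hf]
      exact card_pPrimeCoreOf_coprime L
  · set B := pPrimeCoreOf p (L.map f) with hB
    have hBL : B ≤ L.map f := pPrimeCoreOf_le _
    have h1 : B.comap f ≤ pPrimeCoreOf p L := by
      apply le_pPrimeCoreOf
      · intro x hx
        obtain ⟨l, hl, hlx⟩ := hBL hx
        rwa [← hf hlx]
      · refine le_trans ?_ (le_normalizer_comap f)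
        rw [← map_le_iff_le_comap]
        exact le_normalizer_pPrimeCoreOf _
      · rw [← Subgroup.card_map_of_injective hf]
        exact Nat.Coprime.of_dvd_left (Subgroup.card_dvd_of_le (map_comap_le f B))
          (card_pPrimeCoreOf_coprime _)
    have h2 : B ≤ f.range := hBL.trans (map_le_range f L)
    rw [← map_comap_eq_self h2]
    exact map_mono h1

/-- a finite solvable group is `p`-constrained. -/
theorem pConstrained_of_isSolvable [Finite G] [Fact p.Prime] [Group.IsSolvable G] :
    centralizer (pCore p (G ⧸ pPrimeCore p G) : Set (G ⧸ pPrimeCore p G)) ≤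
      pCore p (G ⧸ pPrimeCore p G) :=
  Cfsg.Agent.S0017.result p (Cfsg.Agent.Lib.Lead.pPrimeCore_quotient_pPrimeCore p G)

theorem mem_centralizer_zpowers_iff {g y : G} :
    g ∈ centralizer ((zpowers y : Subgroup G) : Set G) ↔ g ∈ centralizer ({y} : Set G) := by
  rw [mem_centralizer_singleton_iff, mem_centralizer_iff]
  constructor
  · intro h
    exact (h y (mem_zpowers y)).symm
  · rintro h _ ⟨k, rfl⟩
    exact ((show Commute g y from h).zpow_right k).symm.eq

/-- If `C_G(x)` is solvable and `y` is a `p`-element commuting with `x`, then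
`O_{p'}(C_G(x)) ∩ C_G(y) = O_{p'}(C_G(x) ∩ C_G(y))`. -/
theorem centralizerPPrimeCore_inf_centralizer [Finite G] [Fact p.Prime] (x y : G)
    (hy : orderOf y = p) (hxy : x * y = y * x)
    (hCx : Group.IsSolvable ↥(centralizer ({x} : Set G))) :
    centralizerPPrimeCore p x ⊓ centralizer {y} =
      pPrimeCoreOf p (centralizer ({x} : Set G) ⊓ centralizer ({y} : Set G)) := by
  set H := centralizer ({x} : Set G) with hH
  have hyH : y ∈ H := by
    rw [hH, mem_centralizer_singleton_iff]; exact hxy.symm
  set y' : H := ⟨y, hyH⟩ with hy'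
  have hP' : IsPGroup p (zpowers y' : Subgroup H) := by
    rw [IsPGroup.iff_card]
    refine ⟨1, ?_⟩
    rw [Nat.card_zpowers, pow_one, ← hy, ← Subgroup.orderOf_coe y']
  have key := pPrimeCoreOf_centralizer_eq (p := p) (G := H) pConstrained_of_isSolvable
    (zpowers y') hP'
  have hmap : (centralizer ((zpowers y' : Subgroup H) : Set H)).map H.subtype =
      H ⊓ centralizer ({y} : Set G) := by
    ext g
    constructor
    · rintro ⟨h, hh, rfl⟩
      refine ⟨h.2, ?_⟩
      have h1 := mem_centralizer_zpowers_iff.mp hh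
      rw [mem_centralizer_singleton_iff] at h1
      exact mem_centralizer_singleton_iff.mpr (congrArg Subtype.val h1)
    · rintro ⟨hg1, hg2⟩
      refine ⟨⟨g, hg1⟩, ?_, rfl⟩
      apply mem_centralizer_zpowers_iff.mpr
      have hg3 := mem_centralizer_singleton_iff.mp hg2
      rw [mem_centralizer_singleton_iff]
      exact Subtype.ext hg3
  have key2 := congrArg (Subgroup.map H.subtype) key
  rw [map_pPrimeCoreOf _ H.subtype_injective, hmap, Subgroup.map_inf _ _ _ H.subtype_injective,
    hmap] at key2
  rw [key2]
  have h3 : centralizerPPrimeCore p x = (pPrimeCore p H).map H.subtype := rfl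
  rw [h3, ← inf_assoc, inf_eq_left.mpr (map_subtype_le (pPrimeCore p H))]

end Cfsg.Agent.Lib.Helper9
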