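import Cfsg.Agent.Lib.Helper9.DirectFactor
import Cfsg.Agent.Lib.Helper9.KInfRel
import Cfsg.Agent.Lib.Helper9.ChiefHom
import Cfsg.Agent.Lib.Helper9.WeakClosure5
import Cfsg.Agent.Lib.Helper9.PConstrained2

set_option autoImplicit false

namespace Cfsg.Agent.Lib.Helper9

open scoped Pointwise
open Cfsg Cfsg.Agent.Lib.Helper33

universe u

/-- the abstract form: a subgroup `N ≥ S` normalizing an abelian `A` with `Z(S) ≤ A ≤ S`, such that
the elements of `S ∩ Z(N)` are weakly closed. -/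
theorem splits_of_control {G : Type*} [Group G] [Finite G] {p : ℕ} [Fact p.Prime] (S : Sylow p G)
    (N A : Subgroup G) (hSN : (S : Subgroup G) ≤ N) (hAS : A ≤ (S : Subgroup G))
    (hAab : ∀ a ∈ A, ∀ b ∈ A, a * b = b * a) (hNA : N ≤ Subgroup.normalizer (A : Set G))
    (hZA : (S : Subgroup G) ⊓ Subgroup.centralizer ((S : Subgroup G) : Set G) ≤ A)
    (hctl : ∀ x ∈ (S : Subgroup G) ⊓ Subgroup.centralizer (N : Set G), ∀ g : G,
      g * x * g⁻¹ ∈ (S : Subgroup G) → g * x * g⁻¹ = x) :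
    ∃ W K : Subgroup G, (∀ x : G, x ∈ W ↔ (x ∈ (S : Subgroup G) ∧
        ∀ g : G, g * x * g⁻¹ ∈ (S : Subgroup G) → g * x * g⁻¹ = x)) ∧
      K ≤ ((S : Subgroup G) ⊓ Subgroup.centralizer ((S : Subgroup G) : Set G)) ∧ W ⊓ K = ⊥ ∧
      W ⊔ K = ((S : Subgroup G) ⊓ Subgroup.centralizer ((S : Subgroup G) : Set G)) := by
  obtain ⟨K, hK1, hK2, hK3⟩ := exists_direct_factor S N A hSN hAS hAab hNA hZA
  refine ⟨(S : Subgroup G) ⊓ Subgroup.centralizer (N : Set G), K, ?_, hK1, hK2, hK3⟩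
  intro x
  constructor
  · intro hx
    exact ⟨hx.1, hctl x hx⟩
  · rintro ⟨hxS, hx⟩
    have hxZ : x ∈ (S : Subgroup G) ⊓ Subgroup.centralizer ((S : Subgroup G) : Set G) := by
      refine ⟨hxS, ?_⟩
      apply Subgroup.mem_centralizer_iff.2
      intro s hs
      have h1 := hx s (Subgroup.mul_mem _ (Subgroup.mul_mem _ hs hxS) (Subgroup.inv_mem _ hs))
      calc s * x = (s * x * s⁻¹) * s := by group
        _ = x * s := by rw [h1]
    refine ⟨hxS, ?_⟩
    apply Subgroup.mem_centralizer_iff.2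
    intro n hn
    have h0 : n * x * n⁻¹ ∈ A := (Subgroup.mem_normalizer_iff.1 (hNA hn) x).1 (hZA hxZ)
    have h1 := hx n (hAS h0)
    calc n * x = (n * x * n⁻¹) * n := by group
      _ = x * n := by rw [h1]

/-- the odd case, from the K-infinity theorem. -/
theorem splits_odd {G : Type u} [Group G] [Finite G] {p : ℕ} [Fact p.Prime] (S : Sylow p G)
    (hp : p ≠ 2) :
    ∃ W K : Subgroup G, (∀ x : G, x ∈ W ↔ (x ∈ (S : Subgroup G) ∧
        ∀ g : G, g * x * g⁻¹ ∈ (S : Subgroup G) → g * x * g⁻¹ = x)) ∧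
      K ≤ ((S : Subgroup G) ⊓ Subgroup.centralizer ((S : Subgroup G) : Set G)) ∧ W ⊓ K = ⊥ ∧
      W ⊔ K = ((S : Subgroup G) ⊓ Subgroup.centralizer ((S : Subgroup G) : Set G)) := by
  have hW := isConjugacyFunctor_induced (G := G) (isCharPFunctor_kInfLower.{u} p)
  set W : Subgroup G → Subgroup G := Cfsg.inducedFunctor (G := G) Cfsg.kInfLower with hWdef
  have hWZ : ∀ P : Subgroup G, IsPGroup p ↥P → P ⊓ Subgroup.centralizer (P : Set G) ≤ W P :=
    center_le_induced_kInfLower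
  have hWS : W (S : Subgroup G) ≤ (S : Subgroup G) := (hW _ S.2).1
  have hSN : (S : Subgroup G) ≤ Subgroup.normalizer ((W (S : Subgroup G) : Subgroup G) : Set G) :=
    Subgroup.le_normalizer.trans (IsConjugacyFunctor.normalizer_le hW S.2)
  refine splits_of_control S (Subgroup.normalizer ((W (S : Subgroup G) : Subgroup G) : Set G))
    (W (S : Subgroup G) ⊓ Subgroup.centralizer ((W (S : Subgroup G) : Subgroup G) : Set G))
    hSN (inf_le_left.trans hWS) ?_ ?_ ?_ ?_
  · rintro a ⟨ha1, ha2⟩ b ⟨hb1, hb2⟩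
    exact ((Subgroup.mem_centralizer_iff.1 hb2) a ha1)
  · intro n hn
    rw [mem_normalizer_iff_smul] at hn ⊢
    rw [Subgroup.smul_inf, smul_centralizer, ← Subgroup.coe_pointwise_smul, hn]
  · exact le_inf (hWZ _ S.2) (inf_le_right.trans (Subgroup.centralizer_le hWS))
  · rintro x ⟨hxS, hxC⟩ g hg
    have h1 := WCS_engel hW hWZ (by
      intro H T h1 h2 h3 h4
      obtain ⟨g, hg1, hg2, hg3⟩ := exists_quadratic_rel H T h1 h2 h3 (Or.inl h4)
      refine ⟨g, hg1, hg2, fun U V _ hU => ?_⟩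
      have hp2 : 2 ≤ p - 1 := by
        have := (Fact.out : p.Prime).two_le
        omega
      have h5 : Cfsg.iterCommutator (U.map H.subtype) (Subgroup.zpowers g) 2 ≤ ⊥ := by
        rw [← hg3]
        exact Subgroup.commutator_mono (Subgroup.commutator_mono hU le_rfl) le_rfl
      exact (iter_le_of_le _ h5 hp2).trans bot_le) ⊤ (S : Subgroup G) (relSyl_top S) {x}
      ⟨⟨x, rfl⟩, by
        rw [Set.singleton_subset_iff]
        exact ⟨hxS, (Subgroup.centralizer_le hSN) hxC⟩⟩ (by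
        intro y hy
        rw [mem_cStab_singleton]
        have := (Subgroup.mem_centralizer_iff.1 hxC) y hy.2
        rw [this]; group) g (Subgroup.mem_top g) (by
        rw [Set.smul_set_singleton, Set.singleton_subset_iff]; exact hg)
    exact mem_cStab_singleton.1 h1

/-- the solvable case, from `p`-constraint. -/
theorem splits_solvable {G : Type*} [Group G] [Finite G] {p : ℕ} [Fact p.Prime] (S : Sylow p G)
    (hsol : Group.IsSolvable G) :
    ∃ W K : Subgroup G, (∀ x : G, x ∈ W ↔ (x ∈ (S : Subgroup G) ∧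
        ∀ g : G, g * x * g⁻¹ ∈ (S : Subgroup G) → g * x * g⁻¹ = x)) ∧
      K ≤ ((S : Subgroup G) ⊓ Subgroup.centralizer ((S : Subgroup G) : Set G)) ∧ W ⊓ K = ⊥ ∧
      W ⊔ K = ((S : Subgroup G) ⊓ Subgroup.centralizer ((S : Subgroup G) : Set G)) := by
  set O := pPrimeCore p G with hO
  set π := QuotientGroup.mk' O with hπ
  have hπs : Function.Surjective π := QuotientGroup.mk'_surjective O
  haveI : (pCore p (G ⧸ O)).Normal := Cfsg.Agent.Lib.Helper33.pCore_normal
  set M : Subgroup G := (pCore p (G ⧸ O)).comap π with hM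
  haveI hMn : M.Normal := inferInstance
  set R := (S : Subgroup G) ⊓ M with hR
  have hRsyl : RelSyl p R M := relSyl_inf_normal' S M
  have hOcop : (Nat.card O).Coprime p := Cfsg.Agent.Lib.Lead.card_pPrimeCore_coprime p
  -- every element of `O_p(G/O)` is the image of an element of `R`
  have hlift : ∀ y ∈ pCore p (G ⧸ O), ∃ r ∈ R, π r = y := by
    intro y hy
    have h1 : y ∈ ((S.mapSurjective hπs : Sylow p (G ⧸ O)) : Subgroup (G ⧸ O)) :=
      Cfsg.Agent.Lib.Lead.pCore_le_sylow _ hy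
    rw [Sylow.coe_mapSurjective] at h1
    obtain ⟨s, hs, rfl⟩ := h1
    exact ⟨s, ⟨hs, hy⟩, rfl⟩
  have hSN : (S : Subgroup G) ≤ Subgroup.normalizer (R : Set G) := by
    intro s hs
    rw [mem_normalizer_iff_smul, hR, Subgroup.smul_inf, Subgroup.Normal.conj_smul_eq_self s M,
      mem_normalizer_iff_smul.1 (Subgroup.le_normalizer hs)]
  refine splits_of_control S (Subgroup.normalizer (R : Set G))
    (R ⊓ Subgroup.centralizer (R : Set G)) hSN (inf_le_left.trans inf_le_left) ?_ ?_ ?_ ?_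
  · rintro a ⟨ha1, ha2⟩ b ⟨hb1, hb2⟩
    exact ((Subgroup.mem_centralizer_iff.1 hb2) a ha1)
  · intro n hn
    rw [mem_normalizer_iff_smul] at hn ⊢
    rw [Subgroup.smul_inf, smul_centralizer, ← Subgroup.coe_pointwise_smul, hn]
  · rintro z ⟨hzS, hzC⟩
    have hzM : z ∈ M := by
      show π z ∈ pCore p (G ⧸ O)
      apply pConstrained_of_isSolvable
      apply Subgroup.mem_centralizer_iff.2
      intro y hy
      obtain ⟨r, hr, rfl⟩ := hlift y hy
      rw [← map_mul, ← map_mul, (Subgroup.mem_centralizer_iff.1 hzC) r hr.1]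
    exact ⟨⟨hzS, hzM⟩, (Subgroup.centralizer_le (inf_le_left : R ≤ (S : Subgroup G))) hzC⟩
  · rintro x ⟨hxS, hxC⟩ g hg
    obtain ⟨c, hc, n, hn, rfl⟩ := frattini hRsyl g (Subgroup.Normal.conj_smul_eq_self g M)
    obtain ⟨r, hr, hrc⟩ := hlift (π c) hc
    have ho : c * r⁻¹ ∈ O := by
      rw [← QuotientGroup.eq_one_iff]
      show π (c * r⁻¹) = 1
      rw [map_mul, map_inv, hrc, mul_inv_cancel]
    have hrn : r * n ∈ Subgroup.normalizer (R : Set G) :=
      Subgroup.mul_mem _ (Subgroup.le_normalizer hr) hn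
    have h1 := (Subgroup.mem_centralizer_iff.1 hxC) _ hrn
    have e : c * n * x * (c * n)⁻¹ = (c * r⁻¹) * x * (c * r⁻¹)⁻¹ := by
      calc c * n * x * (c * n)⁻¹ = (c * r⁻¹) * ((r * n) * x) * (r * n)⁻¹ * (c * r⁻¹)⁻¹ := by group
        _ = (c * r⁻¹) * (x * (r * n)) * (r * n)⁻¹ * (c * r⁻¹)⁻¹ := by rw [h1]
        _ = _ := by group
    rw [e] at hg ⊢
    set o := c * r⁻¹ with hodef
    have h2 : o * x * o⁻¹ * x⁻¹ ∈ (S : Subgroup G) ⊓ O := by
      refine ⟨Subgroup.mul_mem _ hg (Subgroup.inv_mem _ hxS), ?_⟩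
      have h3 : x * o⁻¹ * x⁻¹ ∈ O :=
        (inferInstance : O.Normal).conj_mem _ (Subgroup.inv_mem _ ho) x
      have h4 := Subgroup.mul_mem _ ho h3
      have e2 : o * x * o⁻¹ * x⁻¹ = o * (x * o⁻¹ * x⁻¹) := by simp only [mul_assoc]
      rw [e2]
      exact h4
    rw [Cfsg.Agent.Lib.Helper33.inf_eq_bot_of_isPGroup_of_coprime S.2 hOcop, Subgroup.mem_bot] at h2
    exact mul_inv_eq_one.1 h2

end Cfsg.Agent.Lib.Helper9
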