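import Cfsg.Agent.Lib.Helper9.DirectFactor2

set_option autoImplicit false

namespace Cfsg.Agent.Lib.Helper9

open scoped Pointwise
open Cfsg Cfsg.Agent.Lib.Helper33

universe u

/-- `p` odd: elements of `S ∩ Z(N_G(K_∞(S)))` are weakly closed in `S`. -/
theorem weaklyClosed_kInfLower {G : Type u} [Group G] [Finite G] {p : ℕ} [Fact p.Prime] (S : Sylow p G)
    (hp : p ≠ 2) (x : G) (hxS : x ∈ (S : Subgroup G))
    (hxC : x ∈ Subgroup.centralizer ((Subgroup.normalizer
      ((Cfsg.inducedFunctor (G := G) Cfsg.kInfLower (S : Subgroup G) : Subgroup G) : Set G) :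
        Subgroup G) : Set G)) (g : G) (hg : g * x * g⁻¹ ∈ (S : Subgroup G)) : g * x * g⁻¹ = x := by
  have hW := isConjugacyFunctor_induced (G := G) (isCharPFunctor_kInfLower.{u} p)
  set W : Subgroup G → Subgroup G := Cfsg.inducedFunctor (G := G) Cfsg.kInfLower with hWdef
  have hWZ : ∀ P : Subgroup G, IsPGroup p ↥P → P ⊓ Subgroup.centralizer (P : Set G) ≤ W P :=
    center_le_induced_kInfLower
  have hSN : (S : Subgroup G) ≤ Subgroup.normalizer ((W (S : Subgroup G) : Subgroup G) : Set G) :=
    Subgroup.le_normalizer.trans (IsConjugacyFunctor.normalizer_le hW S.2)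
  have h1 := WCS_engel hW hWZ (by
    intro H T h1 h2 h3 h4
    obtain ⟨g, hg1, hg2, hg3⟩ := exists_quadratic_rel H T h1 h2 h3 (Or.inl h4)
    refine ⟨g, hg1, hg2, fun U V _ hU => ?_⟩
    have hp2 : 2 ≤ p - 1 := by
      have := (Fact.out : p.Prime).two_le
      omega
    have h5 : Cfsg.iterCommutator (U.map H.subtype) (Subgroup.zpowers g) 2 ≤ ⊥ := by
      rw [← hg3]
      exact Subgroup.commutator_mono (Subgroup.commutator_mono hU le_rfl) le_rfl
    exact (iter_le_of_le _ h5 hp2).trans bot_le) ⊤ (S : Subgroup G) (relSyl_top S) {x}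
    ⟨⟨x, rfl⟩, by
      rw [Set.singleton_subset_iff]
      exact ⟨hxS, (Subgroup.centralizer_le hSN) hxC⟩⟩ (by
      intro y hy
      rw [mem_cStab_singleton]
      have := (Subgroup.mem_centralizer_iff.1 hxC) y hy.2
      rw [this]; group) g (Subgroup.mem_top g) (by
      rw [Set.smul_set_singleton, Set.singleton_subset_iff]; exact hg)
  exact mem_cStab_singleton.1 h1

/-- the local condition of the fusion-system theorem on functors controlling weak closure. -/
theorem local_center_kInfLower {p : ℕ} [Fact p.Prime] (hp : p ≠ 2) (G : Type u) [Group G] [Finite G]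
    (P : Sylow p G) :
    Cfsg.pCore p G ⊓ Subgroup.center G = Cfsg.pCore p G ⊓
      (Subgroup.center ↥(Subgroup.normalizer (((Cfsg.kInfLower ↥(P : Subgroup G)).map
        (P : Subgroup G).subtype : Subgroup G) : Set G))).map
        (Subgroup.normalizer (((Cfsg.kInfLower ↥(P : Subgroup G)).map
          (P : Subgroup G).subtype : Subgroup G) : Set G)).subtype := by
  apply le_antisymm
  · rintro x ⟨hx1, hx2⟩
    have hxN : x ∈ Subgroup.normalizer (((Cfsg.kInfLower ↥(P : Subgroup G)).map
        (P : Subgroup G).subtype : Subgroup G) : Set G) := by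
      rw [Subgroup.mem_normalizer_iff]
      intro h
      have : x * h * x⁻¹ = h := by
        rw [← (Subgroup.mem_center_iff.1 hx2) h]; group
      rw [this]
    refine ⟨hx1, ⟨x, hxN⟩, ?_, rfl⟩
    show (⟨x, hxN⟩ : ↥(Subgroup.normalizer _)) ∈ Subgroup.center _
    rw [Subgroup.mem_center_iff]
    intro n
    apply Subtype.ext
    exact (Subgroup.mem_center_iff.1 hx2) n
  · rintro _ ⟨hx1, n, hn, rfl⟩
    refine ⟨hx1, ?_⟩
    haveI : (pCore p G).Normal := Cfsg.Agent.Lib.Helper33.pCore_normal
    show (n : G) ∈ Subgroup.center G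
    rw [Subgroup.mem_center_iff]
    intro g
    have hC : (n : G) ∈ Subgroup.centralizer ((Subgroup.normalizer
      ((Cfsg.inducedFunctor (G := G) Cfsg.kInfLower (P : Subgroup G) : Subgroup G) : Set G) :
        Subgroup G) : Set G) := by
      apply Subgroup.mem_centralizer_iff.2
      intro m hm
      exact congrArg Subtype.val ((Subgroup.mem_center_iff.1 hn) ⟨m, hm⟩)
    have h1 := weaklyClosed_kInfLower P hp (n : G) (Cfsg.Agent.Lib.Lead.pCore_le_sylow P hx1) hC g
      (Cfsg.Agent.Lib.Lead.pCore_le_sylow P (Subgroup.Normal.conj_mem inferInstance _ hx1 g))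
    calc g * (n : G) = (g * (n : G) * g⁻¹) * g := by group
      _ = (n : G) * g := by rw [h1]

end Cfsg.Agent.Lib.Helper9
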