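import Mathlib

set_option autoImplicit false

namespace Cfsg.Agent.Lib.Helper9

/-- restriction of automorphisms to the centre. -/
def centerRes (Q : Type*) [Group Q] : MulAut Q →* MulAut (Subgroup.center Q) where
  toFun α := Subgroup.centerCongr α
  map_one' := by ext; rfl
  map_mul' := by intro a b; ext; rfl

theorem centerRes_apply {Q : Type*} [Group Q] (α : MulAut Q) (v : Subgroup.center Q) :
    ((centerRes Q α v : Subgroup.center Q) : Q) = α v := rfl

/-- The fixed points of a finite group `A` on an abelian group `V` of exponent prime to `|A : T|` are a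
direct factor of the fixed points of `T` (retraction by the trace map). -/
theorem trace_direct_factor {A V : Type*} [Group A] [Finite A] [CommGroup V] (ρ : A →* MulAut V)
    (T : Subgroup A) (n : ℕ) (hn : ∀ v : V, v ^ n = 1) (hcop : T.index.Coprime n) :
    ∃ K : Subgroup V, (∀ v ∈ K, ∀ t ∈ T, ρ t v = v) ∧ (∀ v ∈ K, (∀ a, ρ a v = v) → v = 1) ∧
      (∀ v, (∀ t ∈ T, ρ t v = v) → ∃ w k, (∀ a, ρ a w = w) ∧ k ∈ K ∧ v = w * k) := by
  classical
  have := Fintype.ofFinite (A ⧸ T)
  let Tr : V →* V := ∏ q : A ⧸ T, (ρ q.out).toMonoidHom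
  have hT : ∀ a, Tr a = ∏ q : A ⧸ T, ρ q.out a := fun a => MonoidHom.finsetProd_apply _ _ a
  have hout : ∀ v : V, (∀ t ∈ T, ρ t v = v) → ∀ a : A, ρ (Quotient.out (a : A ⧸ T)) v = ρ a v := by
    intro v hv a
    obtain ⟨s, hs⟩ := QuotientGroup.mk_out_eq_mul T a
    rw [hs, map_mul, MulAut.mul_apply, hv _ s.2]
  have hinv : ∀ v : V, (∀ t ∈ T, ρ t v = v) → ∀ a : A, ρ a (Tr v) = Tr v := by
    intro v hv a
    have hperm := Equiv.prod_comp (MulAction.toPerm a : Equiv.Perm (A ⧸ T))
      (fun q => ρ (Quotient.out q) v)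
    rw [hT, map_prod]
    refine Eq.trans ?_ hperm
    refine Finset.prod_congr rfl fun q _ => ?_
    symm
    have h1 : (MulAction.toPerm a) q = ((a * q.out : A) : A ⧸ T) := by
      show a • q = _
      conv_lhs => rw [← QuotientGroup.out_eq' q]
      rfl
    rw [h1, hout v hv, map_mul, MulAut.mul_apply]
  set m := Fintype.card (A ⧸ T) with hm
  have hpow : ∀ w : V, (∀ a, ρ a w = w) → Tr w = w ^ m := by
    intro w hw
    rw [hT, hm, ← Finset.card_univ, ← Finset.prod_const]
    exact Finset.prod_congr rfl fun q _ => hw _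
  have hmcop : m.Coprime n := by
    have h2 : m = T.index := by
      rw [hm, Subgroup.index_eq_card, Nat.card_eq_fintype_card]
    rw [h2]
    exact hcop
  let Fx : Subgroup V :=
    { carrier := {v | ∀ t ∈ T, ρ t v = v}
      one_mem' := fun t _ => map_one _
      mul_mem' := fun {a b} ha hb t ht => by rw [map_mul, ha t ht, hb t ht]
      inv_mem' := fun {a} ha t ht => by rw [map_inv, ha t ht] }
  have hbez : (m : ℤ) * Int.gcdA m n + (n : ℤ) * Int.gcdB m n = 1 := by
    have h1 := Int.gcd_eq_gcd_ab (m : ℤ) (n : ℤ)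
    rw [Int.gcd_natCast_natCast, hmcop.gcd_eq_one] at h1
    exact_mod_cast h1.symm
  set u := Int.gcdA m n with hu
  set v' := Int.gcdB m n with hv'
  refine ⟨Tr.ker ⊓ Fx, fun v hv => hv.2, ?_, ?_⟩
  · intro v hv hfix
    have h1 : Tr v = 1 := hv.1
    rw [hpow v hfix] at h1
    have e : v = v ^ ((m : ℤ) * u + (n : ℤ) * v') := by rw [hbez, zpow_one]
    rw [e, zpow_add, zpow_mul, zpow_mul, zpow_natCast, zpow_natCast, h1, hn, one_zpow, one_zpow,
      one_mul]
  · intro y hy
    set t := Tr y with ht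
    have htA : ∀ a, ρ a t = t := hinv y hy
    set w : V := t ^ u with hw
    have hwA : ∀ a, ρ a w = w := by
      intro a
      rw [hw, map_zpow, htA]
    have hTw : Tr w = t := by
      rw [hpow w hwA, hw, ← zpow_natCast, ← zpow_mul]
      have e : u * (m : ℤ) = 1 - (n : ℤ) * v' := by linarith
      rw [e, zpow_sub, zpow_one, zpow_mul, zpow_natCast, hn, one_zpow, inv_one, mul_one]
    refine ⟨w, w⁻¹ * y, hwA, ⟨?_, ?_⟩, by group⟩
    · show Tr (w⁻¹ * y) = 1
      rw [map_mul, map_inv, hTw, ← ht, inv_mul_cancel]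
    · intro s hs
      rw [map_mul, map_inv, hwA, hy s hs]

end Cfsg.Agent.Lib.Helper9
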