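import Cfsg.Agent.Lib.Helper9.Baer
import Cfsg.Agent.Lib.Helper9.PPrimeCoreOf
import Cfsg.Agent.Lib.Helper54.PConstrained
import Cfsg.Agent.Lib.Helper1.Tools
import Cfsg.Agent.S0026
import Cfsg.Agent.S0027
import Cfsg.Agent.S0028

set_option autoImplicit false
open Cfsg Subgroup

namespace Cfsg.Agent.Lib.Helper9

open Cfsg.Agent.Lib.Helper47
open scoped commutatorElement

variable {G : Type*} [Group G] {p : ℕ}

theorem commutator_le_of_le_normalizer {R K : Subgroup G} (h : K ≤ normalizer (R : Set G)) :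
    ⁅R, K⁆ ≤ R := by
  rw [commutator_le]
  intro r hr k hk
  have h1 : k * r⁻¹ * k⁻¹ ∈ R := (mem_normalizer_iff.mp (h hk) _).mp (inv_mem hr)
  have h2 : ⁅r, k⁆ = r * (k * r⁻¹ * k⁻¹) := by
    simp only [commutatorElement_def]; group
  rw [h2]
  exact mul_mem hr h1

theorem isSolvable_of_isPGroup [Finite G] [Fact p.Prime] {R : Subgroup G} (hR : IsPGroup p R) :
    Group.IsSolvable R := by
  have : Group.IsNilpotent R := hR.isNilpotent
  infer_instance

theorem coprime_card_of_isPGroup [Finite G] [Fact p.Prime] {R K : Subgroup G} (hR : IsPGroup p R)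
    (hK : (Nat.card K).Coprime p) : (Nat.card K).Coprime (Nat.card R) := by
  obtain ⟨k, hk⟩ := IsPGroup.iff_card.mp hR
  rw [hk]
  exact Nat.Coprime.pow_right k hK

/-- Odd case: if a `p'`-group `K` normalized by a `p`-group `E` acts on a `p`-group `R`, `p` odd, and
every fixed point of `E` on `R` is fixed by `K`, then `K` centralizes `R`. -/
theorem le_centralizer_of_fixed_odd [Finite G] [Fact p.Prime] (hp2 : p ≠ 2)
    (K E : Subgroup G) (hE : IsPGroup p E) (hK : (Nat.card K).Coprime p)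
    (hEK : E ≤ normalizer (K : Set G)) :
    ∀ (n : ℕ) (R : Subgroup G), Nat.card R = n → IsPGroup p R → K ≤ normalizer (R : Set G) →
      E ≤ normalizer (R : Set G) → R ⊓ centralizer (E : Set G) ≤ centralizer (K : Set G) →
      R ≤ centralizer (K : Set G) := by
  intro n
  induction n using Nat.strong_induction_on with
  | _ n ih =>
  intro R hn hR hKR hER hfix
  have hsol : Group.IsSolvable R := isSolvable_of_isPGroup hR
  have hcop := coprime_card_of_isPGroup hR hK
  have hR1 : ⁅R, K⁆ ≤ R := commutator_le_of_le_normalizer hKR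
  have hinv : ∀ g, g ∈ normalizer (R : Set G) → g ∈ normalizer (K : Set G) →
      g ∈ normalizer ((⁅R, K⁆ : Subgroup G) : Set G) := by
    intro g h1 h2
    apply mem_normalizer_of_cj_eq
    rw [cj_commutator, cj_eq_self_of_mem_normalizer h1, cj_eq_self_of_mem_normalizer h2]
  by_cases hlt : ⁅R, K⁆ = R
  · -- `R = [R, K]`
    by_cases hbot : R = ⊥
    · rw [hbot]; exact bot_le
    have hnt : Nontrivial R := (Subgroup.nontrivial_iff_ne_bot R).mpr hbot
    have hR' : ⁅R, R⁆ < R := by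
      rw [← Subgroup.map_subtype_commutator]
      have h1 := Group.IsSolvable.commutator_lt_top_of_nontrivial R
      have h2 := Subgroup.map_lt_map_iff_of_injective (f := R.subtype) R.subtype_injective |>.mpr h1
      have h3 : (⊤ : Subgroup R).map R.subtype = R := by
        rw [← MonoidHom.range_eq_map, Subgroup.range_subtype]
      rwa [h3] at h2
    have hinv' : ∀ g, g ∈ normalizer (R : Set G) →
        g ∈ normalizer ((⁅R, R⁆ : Subgroup G) : Set G) := by
      intro g h1
      apply mem_normalizer_of_cj_eq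
      rw [cj_commutator, cj_eq_self_of_mem_normalizer h1]
    have hR'K : ⁅R, R⁆ ≤ centralizer (K : Set G) :=
      ih _ (hn ▸ Cfsg.Agent.Lib.Helper1.card_lt_of_lt hR') ⁅R, R⁆ rfl (hR.to_le hR'.le)
        (fun g hg => hinv' g (hKR hg)) (fun g hg => hinv' g (hER hg))
        ((inf_le_inf_right _ hR'.le).trans hfix)
    have hb : ⁅⁅R, R⁆, K⁆ = ⊥ := commutator_eq_bot_iff_le_centralizer.mpr hR'K
    have h3 : ⁅⁅K, R⁆, ⁅R, R⁆⁆ = ⊥ := by
      apply commutator_commutator_eq_bot_of_rotate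
      · rw [← le_bot_iff, ← hb]
        exact commutator_mono (commutator_mono le_rfl hR'.le) le_rfl
      · rw [hb]
        exact commutator_bot_left R
    rw [commutator_comm K R, hlt, commutator_eq_bot_iff_le_centralizer] at h3
    have hcl : Cl2 R := by
      intro x y
      rw [Subgroup.mem_center_iff]
      intro z
      apply Subtype.ext
      have h4 : ((⁅x, y⁆ : R) : G) ∈ ⁅R, R⁆ := by
        have : ((⁅x, y⁆ : R) : G) = ⁅(x : G), (y : G)⁆ := by
          simp [commutatorElement_def]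
        rw [this]
        exact commutator_mem_commutator x.2 y.2
      have h5 := (mem_centralizer_iff.mp (h3 z.2)) _ h4
      exact h5.symm
    let φ : K →* MulAut R := R.normalizerMonoidHom.comp (inclusion hKR)
    let ψ : E →* MulAut R := R.normalizerMonoidHom.comp (inclusion hER)
    have hφ : ∀ (k : K) (x : R), ((φ k x : R) : G) = k * x * (k : G)⁻¹ := fun _ _ => rfl
    have hψ : ∀ (e : E) (x : R), ((ψ e x : R) : G) = e * x * (e : G)⁻¹ := fun _ _ => rfl
    have key := baer_fixed (D := R) (K := K) (E := E) hp2 hR hcl φ ψ hE hK ?_ ?_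
    · intro x hx
      rw [mem_centralizer_iff]
      intro k hk
      have := congrArg Subtype.val (key ⟨k, hk⟩ ⟨x, hx⟩)
      rw [hφ] at this
      exact mul_inv_eq_iff_eq_mul.mp this
    · intro e
      refine ⟨(K.normalizerMonoidHom (inclusion hEK e)).toEquiv, fun k => ?_⟩
      ext x
      have h6 : (((K.normalizerMonoidHom (inclusion hEK e)).toEquiv k : K) : G) =
          e * k * (e : G)⁻¹ := rfl
      rw [MulAut.mul_apply, MulAut.mul_apply, hψ, hφ, hφ, hψ, h6]
      group
    · intro x hx k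
      have h7 : (x : G) ∈ R ⊓ centralizer (E : Set G) := by
        refine mem_inf.mpr ⟨x.2, ?_⟩
        rw [mem_centralizer_iff]
        intro e he
        have := congrArg Subtype.val (hx ⟨e, he⟩)
        rw [hψ] at this
        exact mul_inv_eq_iff_eq_mul.mp this
      have h8 := (mem_centralizer_iff.mp (hfix h7)) k k.2
      apply Subtype.ext
      rw [hφ, h8, mul_inv_cancel_right]
  · -- `[R, K] < R`
    have hlt' : ⁅R, K⁆ < R := lt_of_le_of_ne hR1 hlt
    have h1 : ⁅R, K⁆ ≤ centralizer (K : Set G) :=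
      ih _ (hn ▸ Cfsg.Agent.Lib.Helper1.card_lt_of_lt hlt') ⁅R, K⁆ rfl (hR.to_le hR1)
        (fun g hg => hinv g (hKR hg) (le_normalizer hg)) (fun g hg => hinv g (hER hg) (hEK hg))
        ((inf_le_inf_right _ hR1).trans hfix)
    have h2 := Cfsg.Agent.S0027.result K R hKR hcop (Or.inr hsol)
    rw [commutator_eq_bot_iff_le_centralizer.mpr h1] at h2
    exact commutator_eq_bot_iff_le_centralizer.mp h2.symm

/-- Quadratic case: the same conclusion for any prime when `[R, E, E] = 1`. -/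
theorem le_centralizer_of_fixed_quadratic [Finite G] [Fact p.Prime]
    (R K E : Subgroup G) (hR : IsPGroup p R) (hE : IsPGroup p E) (hK : (Nat.card K).Coprime p)
    (hEK : E ≤ normalizer (K : Set G)) (hKR : K ≤ normalizer (R : Set G))
    (hER : E ≤ normalizer (R : Set G))
    (hfix : R ⊓ centralizer (E : Set G) ≤ centralizer (K : Set G))
    (hquad : ∀ r ∈ R, ∀ e ∈ E, ⁅r, e⁆ ∈ centralizer (E : Set G)) :
    R ≤ centralizer (K : Set G) := by
  set Z0 := R ⊓ centralizer (E : Set G) with hZ0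
  let M : Subgroup G :=
    { carrier := {g | g ∈ centralizer (Z0 : Set G) ∧ ∀ r ∈ R, r⁻¹ * (g * r * g⁻¹) ∈ Z0}
      one_mem' := ⟨one_mem _, fun r _ => by simp⟩
      mul_mem' := by
        rintro g h ⟨hg1, hg2⟩ ⟨hh1, hh2⟩
        refine ⟨mul_mem hg1 hh1, fun r hr => ?_⟩
        have h1 := hh2 r hr
        have h2 := hg2 r hr
        have h3 : g * (r⁻¹ * (h * r * h⁻¹)) = (r⁻¹ * (h * r * h⁻¹)) * g :=
          ((mem_centralizer_iff.mp hg1) _ h1).symm
        have h4 : r⁻¹ * (g * h * r * (g * h)⁻¹) =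
            r⁻¹ * (g * r * g⁻¹) * (g * (r⁻¹ * (h * r * h⁻¹)) * g⁻¹) := by group
        rw [h4, h3, mul_inv_cancel_right]
        exact mul_mem h2 h1
      inv_mem' := by
        rintro g ⟨hg1, hg2⟩
        refine ⟨inv_mem hg1, fun r hr => ?_⟩
        have h2 := hg2 r hr
        have h3 : g * (r⁻¹ * (g * r * g⁻¹)) = (r⁻¹ * (g * r * g⁻¹)) * g :=
          ((mem_centralizer_iff.mp hg1) _ h2).symm
        have h4 : r⁻¹ * (g⁻¹ * r * g⁻¹⁻¹) = (g⁻¹ * (r⁻¹ * (g * r * g⁻¹) * g))⁻¹ := by group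
        rw [h4, ← h3, inv_mul_cancel_left]
        exact inv_mem h2 }
  have hmemM : ∀ g, g ∈ M ↔ g ∈ centralizer (Z0 : Set G) ∧ ∀ r ∈ R, r⁻¹ * (g * r * g⁻¹) ∈ Z0 :=
    fun _ => Iff.rfl
  have hEM : E ≤ M := by
    intro e he
    rw [hmemM]
    refine ⟨le_centralizer_iff.mp inf_le_right he, fun r hr => mem_inf.mpr ⟨?_, ?_⟩⟩
    · exact mul_mem (inv_mem hr) ((mem_normalizer_iff.mp (hER he) _).mp hr)
    · have := hquad r⁻¹ (inv_mem hr) e he
      have h1 : ⁅r⁻¹, e⁆ = r⁻¹ * (e * r * e⁻¹) := by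
        simp only [commutatorElement_def]; group
      rwa [h1] at this
  have hKZ : K ≤ centralizer (Z0 : Set G) := le_centralizer_iff.mp hfix
  have hKM : ∀ k ∈ K, ∀ g ∈ M, k * g * k⁻¹ ∈ M := by
    intro k hk g hg
    rw [hmemM] at hg ⊢
    refine ⟨mul_mem (mul_mem (hKZ hk) hg.1) (inv_mem (hKZ hk)), fun r hr => ?_⟩
    have hr' : k⁻¹ * r * k⁻¹⁻¹ ∈ R := (mem_normalizer_iff.mp (inv_mem (hKR hk)) _).mp hr
    have h1 := hg.2 _ hr'
    have h2 := (mem_centralizer_iff.mp (hKZ hk)) _ h1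
    have h3 : r⁻¹ * (k * g * k⁻¹ * r * (k * g * k⁻¹)⁻¹) =
        k * ((k⁻¹ * r * k⁻¹⁻¹)⁻¹ * (g * (k⁻¹ * r * k⁻¹⁻¹) * g⁻¹)) * k⁻¹ := by group
    rw [h3, ← h2, mul_inv_cancel_right]
    exact h1
  have hcomm : ⁅K, E⁆ ≤ M := by
    rw [commutator_le]
    intro k hk e he
    have h1 : ⁅k, e⁆ = k * e * k⁻¹ * e⁻¹ := commutatorElement_def k e
    rw [h1]
    exact mul_mem (hKM k hk e (hEM he)) (inv_mem (hEM he))
  have hcommK : ⁅K, E⁆ ≤ K := commutator_le_of_le_normalizer hEK
  have h1 : ⁅K, E⁆ ≤ centralizer (R : Set G) := by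
    intro l hl
    rw [mem_centralizer_iff]
    intro r hr
    have hlM := (hmemM l).mp (hcomm hl)
    have hz := hlM.2 r hr
    obtain ⟨j, hj⟩ := hR ⟨_, (mem_inf.mp hz).1⟩
    have hj' : (r⁻¹ * (l * r * l⁻¹)) ^ p ^ j = 1 := by simpa using congrArg Subtype.val hj
    have hlo : (orderOf l).Coprime p :=
      Nat.Coprime.of_dvd_left (Subgroup.orderOf_dvd_natCard K (hcommK hl)) hK
    have h2 : l * (r⁻¹ * (l * r * l⁻¹)) * l⁻¹ = r⁻¹ * (l * r * l⁻¹) := by
      rw [← (mem_centralizer_iff.mp hlM.1) _ hz, mul_inv_cancel_right]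
    have h3 := Cfsg.Agent.Lib.Helper54.commute_of_conj_eq_mul (p := p) (d := l) (g := r)
      (e := r⁻¹ * (l * r * l⁻¹)) (by group) h2 hlo hj'
    exact (mul_inv_eq_iff_eq_mul.mp h3).symm
  have h2 : K ⊓ centralizer (E : Set G) ≤ centralizer (R : Set G) := by
    apply Cfsg.Agent.S0028.result p E (K ⊓ centralizer (E : Set G)) R hE
      (Nat.Coprime.of_dvd_left (Subgroup.card_dvd_of_le inf_le_left) hK) hR
    · exact le_centralizer_iff.mp inf_le_right
    · exact hER
    · exact inf_le_left.trans hKR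
    · exact hfix.trans (centralizer_le (by exact_mod_cast (inf_le_left : K ⊓ centralizer (E : Set G) ≤ K)))
  have h3 := Cfsg.Agent.S0026.result E K hEK (coprime_card_of_isPGroup hE hK).symm
    (Or.inl (isSolvable_of_isPGroup hE))
  apply le_centralizer_iff.mp
  rw [← h3]
  exact sup_le h1 h2

end Cfsg.Agent.Lib.Helper9
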