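import Cfsg.Agent.Lib.Helper9.Transitivity1
import Cfsg.Agent.Lib.Helper9.PConstrained
import Cfsg.Agent.Lib.Helper47.AxB

set_option autoImplicit false
open Cfsg Subgroup

namespace Cfsg.Agent.Lib.Helper9

open Cfsg.Agent.Lib.Helper47
open scoped commutatorElement

variable {G : Type*} [Group G] {p : ℕ}

/-- every `p`-subgroup has nilpotency class at most two. -/
def PCl2 (p : ℕ) (X : Type*) [Group X] : Prop :=
  ∀ T : Subgroup X, IsPGroup p T → ∀ x ∈ T, ∀ y ∈ T, ∀ z ∈ T, ⁅⁅x, y⁆, z⁆ = 1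

theorem PCl2.of_surjective {X Y : Type*} [Group X] [Finite X] [Group Y] [Fact p.Prime]
    (f : X →* Y) (hf : Function.Surjective f) (h : PCl2 p X) : PCl2 p Y := by
  intro T hT x hx y hy z hz
  obtain ⟨P, hP⟩ := hT.exists_le_sylow
  obtain ⟨Q, rfl⟩ := Sylow.mapSurjective_surjective hf p P
  obtain ⟨x', hx', rfl⟩ := hP hx
  obtain ⟨y', hy', rfl⟩ := hP hy
  obtain ⟨z', hz', rfl⟩ := hP hz
  rw [← map_commutatorElement, ← map_commutatorElement, h Q Q.2 x' hx' y' hy' z' hz', map_one]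

theorem PCl2.subgroup (N : Subgroup G) (h : PCl2 p G) : PCl2 p N := by
  intro T hT x hx y hy z hz
  have := h (T.map N.subtype) (hT.map _) x ⟨x, hx, rfl⟩ y ⟨y, hy, rfl⟩ z ⟨z, hz, rfl⟩
  apply Subtype.ext
  simpa [commutatorElement_def] using this

/-- the `p`-part of an element whose image is a `p`-element has the same image. -/
theorem exists_pow_isPGroup_map_eq {X Y : Type*} [Group X] [Finite X] [Group Y] [Fact p.Prime]
    (f : X →* Y) (x : X) {j : ℕ} (hj : (f x) ^ (p ^ j) = 1) :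
    ∃ n : ℕ, IsPGroup p (zpowers (x ^ n)) ∧ f (x ^ n) = f x := by
  have hp : p.Prime := Fact.out
  rcases Nat.eq_zero_or_pos j with rfl | hjpos
  · refine ⟨0, ?_, ?_⟩
    · have h0 : zpowers (x ^ 0) = ⊥ := by simp
      rw [h0]
      exact IsPGroup.of_bot
    · simpa using hj.symm
  obtain ⟨a, m, hm, ho⟩ := Nat.exists_eq_pow_mul_and_not_dvd (orderOf_pos x).ne' p hp.ne_one
  have hcop : Nat.Coprime m (p ^ j) :=
    Nat.Coprime.pow_right j ((Nat.Prime.coprime_iff_not_dvd hp).mpr hm).symm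
  obtain ⟨m', -, hm'⟩ := Nat.exists_mul_mod_eq_one_of_coprime hcop (Nat.one_lt_pow hjpos.ne' hp.one_lt)
  refine ⟨m * m', ?_, ?_⟩
  · have h1 : (x ^ (m * m')) ^ p ^ a = 1 := by
      rw [← pow_mul]
      have : m * m' * p ^ a = orderOf x * m' := by rw [ho]; ring
      rw [this, pow_mul, pow_orderOf_eq_one, one_pow]
    obtain ⟨b, -, hb⟩ := (Nat.dvd_prime_pow hp).mp (orderOf_dvd_of_pow_eq_one h1)
    apply IsPGroup.of_card (n := b)
    rw [Nat.card_zpowers, hb]
  · rw [map_pow]
    have h2 : m * m' = p ^ j * (m * m' / p ^ j) + 1 := by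
      have := Nat.div_add_mod (m * m') (p ^ j)
      omega
    rw [h2, pow_succ, pow_mul, hj, one_pow, one_mul]

/-- **Key lemma.** In a `p`-constrained group (with `p`-subgroups of class at most two if `p = 2`),
if the `p`-subgroup `E` contains every `p`-element of its centralizer then every `E`-invariant
`p'`-subgroup lies in `O_{p'}`. -/
theorem le_pPrimeCore_of_invariant {X : Type*} [Group X] [Finite X] [Fact p.Prime]
    (hX : IsPConstrained p X) (hcl : p = 2 → PCl2 p X)
    (E K : Subgroup X) (hE : IsPGroup p E)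
    (hfull : ∀ x ∈ centralizer (E : Set X), IsPGroup p (zpowers x) → x ∈ E)
    (hK : (Nat.card K).Coprime p) (hEK : E ≤ normalizer (K : Set X)) : K ≤ pPrimeCore p X := by
  set W := pPrimeCore p X with hW
  have hWc : (Nat.card W).Coprime p := Cfsg.Agent.Lib.Lead.card_pPrimeCore_coprime p
  set π := QuotientGroup.mk' W with hπ
  have hπs : Function.Surjective π := QuotientGroup.mk'_surjective W
  have hker : ∀ c, π c = 1 → c ∈ W := by
    intro c hc
    rw [← QuotientGroup.ker_mk' W]; exact hc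
  set R := pCore p (X ⧸ W) with hR
  have hSC : centralizer (R : Set (X ⧸ W)) ≤ R :=
    Cfsg.Agent.Lib.Helper54.isPConstrained_iff_quotient.mp hX
  have hRp : IsPGroup p R := Cfsg.Agent.Lib.Lead.pCore_isPGroup p _
  have hRn : R.Normal := inferInstance
  have hRtop : normalizer (R : Set (X ⧸ W)) = ⊤ := normalizer_eq_top_iff.mpr hRn
  have hE' : IsPGroup p (E.map π) := hE.map π
  have hK' : (Nat.card (K.map π)).Coprime p :=
    Nat.Coprime.of_dvd_left (Subgroup.card_map_dvd _ _) hK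
  have hEK' : E.map π ≤ normalizer ((K.map π : Subgroup (X ⧸ W)) : Set (X ⧸ W)) :=
    (map_mono hEK).trans (le_normalizer_map π)
  have hRK0 : R ⊓ K.map π = ⊥ := inf_eq_bot_of_isPGroup_of_coprime hRp hK'
  have hEW : E ⊓ W = ⊥ := inf_eq_bot_of_isPGroup_of_coprime hE hWc
  have hfix : R ⊓ centralizer ((E.map π : Subgroup (X ⧸ W)) : Set (X ⧸ W)) ≤
      centralizer ((K.map π : Subgroup (X ⧸ W)) : Set (X ⧸ W)) := by
    intro r hr
    obtain ⟨hrR, hrC⟩ := mem_inf.mp hr
    obtain ⟨x, hxN, hxr⟩ := normalizer_map_mk'_le W hWc E hE (centralizer_le_normalizer _ hrC)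
    have hxr' : π x = r := hxr
    subst hxr'
    have hxC : x ∈ centralizer (E : Set X) := by
      rw [mem_centralizer_iff]
      intro e he
      have h1 : x * e * x⁻¹ * e⁻¹ ∈ E ⊓ W := by
        refine mem_inf.mpr ⟨mul_mem ((mem_normalizer_iff.mp hxN _).mp he) (inv_mem he), ?_⟩
        apply hker
        have h2 := (mem_centralizer_iff.mp hrC) (π e) ⟨e, he, rfl⟩
        simp only [map_mul, map_inv]
        rw [← h2]
        group
      rw [hEW, mem_bot] at h1
      have h3 : x * e * x⁻¹ * e⁻¹ * (e * x) = e * x := by rw [h1, one_mul]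
      rw [← h3]; group
    obtain ⟨j, hj⟩ := hRp ⟨_, hrR⟩
    have hj' : (π x) ^ p ^ j = 1 := congrArg Subtype.val hj
    obtain ⟨n, hn1, hn2⟩ := exists_pow_isPGroup_map_eq π x hj'
    have hyE : x ^ n ∈ E := hfull _ (pow_mem hxC n) hn1
    rw [← hn2] at hrR ⊢
    set y := x ^ n with hy
    rw [mem_centralizer_iff]
    rintro _ ⟨k, hk, rfl⟩
    have h1 : π (y * k * y⁻¹ * k⁻¹) ∈ R ⊓ K.map π := by
      refine mem_inf.mpr ⟨?_, ⟨_, mul_mem ((mem_normalizer_iff.mp (hEK hyE) _).mp hk) (inv_mem hk), rfl⟩⟩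
      have h2 : π (y * k * y⁻¹ * k⁻¹) = π y * (π k * (π y)⁻¹ * (π k)⁻¹) := by
        simp only [map_mul, map_inv]; group
      rw [h2]
      exact mul_mem hrR (hRn.conj_mem _ (inv_mem hrR) _)
    rw [hRK0, mem_bot] at h1
    have h3 : π (y * k * y⁻¹ * k⁻¹) * (π k * π y) = π k * π y := by rw [h1, one_mul]
    rw [← h3]
    simp only [map_mul, map_inv]; group
  have hRK : R ≤ centralizer ((K.map π : Subgroup (X ⧸ W)) : Set (X ⧸ W)) := by
    by_cases hp2 : p = 2
    · apply le_centralizer_of_fixed_quadratic R (K.map π) (E.map π) hRp hE' hK' hEK'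
        (hRtop ▸ le_top) (hRtop ▸ le_top) hfix
      intro r hr e he
      have hT : IsPGroup p (R ⊔ E.map π : Subgroup (X ⧸ W)) :=
        IsPGroup_sup hRp hE' (hRtop ▸ le_top)
      rw [mem_centralizer_iff]
      intro f hf
      have := (hcl hp2).of_surjective π hπs _ hT r (le_sup_left (a := R) hr) e
        (le_sup_right (a := R) he) f (le_sup_right (a := R) hf)
      exact (commutatorElement_eq_one_iff_mul_comm.mp this).symm
    · exact le_centralizer_of_fixed_odd hp2 (K.map π) (E.map π) hE' hK' hEK' _ R rfl hRp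
        (hRtop ▸ le_top) (hRtop ▸ le_top) hfix
  have hbot : K.map π = ⊥ := by
    rw [← le_bot_iff, ← hRK0]
    exact le_inf ((le_centralizer_iff.mp hRK).trans hSC) le_rfl
  rw [Subgroup.map_eq_bot_iff, QuotientGroup.ker_mk'] at hbot
  exact hbot

end Cfsg.Agent.Lib.Helper9
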